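import Groth.Agent.Etalg.SolFinal
import Groth.Agent.Etalg.ResTop
import Groth.Agent.Etalg.SolNormal
import Groth.Agent.Etalg.RamWeak
import Groth.Agent.S1983
import Mathlib.FieldTheory.Normal.Closure
import Mathlib.FieldTheory.PurelyInseparable.Basic

/-!
# From one good level to a solution: the solution is the normal closure of the good level; if the good level
is separable over `K`, the solution is separable over `K`
-/

set_option autoImplicit false
universe u

open Groth.Agent.Etalg.ResInd Groth.Agent.Etalg.ResTop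
  IsLocalRing IntermediateField EtRam Groth.Agent.Etalg.RamBasic

namespace Groth.Agent.Etalg.H122.SepFinal

export Groth.Agent.Etalg.SolFinal (range_algebraMap)

theorem isSolution_normalClosure_of_good {B K L Ω : Type u} [CommRing B] [IsDomain B] [IsDiscreteValuationRing B]
    [Field K] [Field L] [Field Ω] [Algebra K L] [Algebra B L] [IsFractionRing B L]
    [Algebra L Ω] [Algebra K Ω] [IsScalarTower K L Ω] [IsAlgClosed Ω]
    (O : ValuationSubring Ω) (hO : Dominates B ((algebraMap L Ω).comp (algebraMap B L)) O)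
    (E : IntermediateField K Ω) [FiniteDimensional K E]
    (M₀ : IntermediateField K Ω) (hM₀ : M₀ = (IsScalarTower.toAlgHom K L Ω).fieldRange ⊔ E)
    (f : E →+* M₀) (hf : ∀ x : E, ((f x : M₀) : Ω) = x) {π : Ω} (hπE : π ∈ E) (hπ : IsUnif O (M₀ : Set Ω) π)
    (hg : @Algebra.IsGeometricallyReduced (ResidueField ((O.comap (algebraMap M₀ Ω)).comap f))
          (ResidueField (O.comap (algebraMap M₀ Ω))) _ _
          (ResidueField.map (inclOfComap (O.comap (algebraMap M₀ Ω)) f)).toAlgebra) :
    IsSolution B K L (normalClosure K E Ω) := by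
  classical
  let N : IntermediateField K Ω := normalClosure K E Ω
  have hNfin : FiniteDimensional K N := inferInstance
  have hNclos : IsNormalClosure K E N :=
    Algebra.IsAlgebraic.isNormalClosure_normalClosure fun x => IsAlgClosed.splits _
  have hNnormal : Normal K N := hNclos.normal
  have hEN : E ≤ N := le_normalClosure E
  have hEM₀ : E ≤ M₀ := by rw [hM₀]; exact le_sup_right
  let X : IntermediateField K Ω := (IsScalarTower.toAlgHom K L Ω).fieldRange
  let M : IntermediateField K Ω := X ⊔ N
  have hNM : N ≤ M := le_sup_right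
  have hM₀M : M₀ ≤ M := by rw [hM₀]; exact sup_le_sup le_rfl hEN
  let g : N →+* M := (IntermediateField.inclusion hNM).toRingHom
  -- the algebra structures
  let i1 : Algebra E M₀ := f.toAlgebra
  let i2 : Algebra E N := (IntermediateField.inclusion hEN).toRingHom.toAlgebra
  let i3 : Algebra E M := (IntermediateField.inclusion (hEN.trans hNM)).toRingHom.toAlgebra
  let i4 : Algebra M₀ M := (IntermediateField.inclusion hM₀M).toRingHom.toAlgebra
  let i5 : Algebra N M := g.toAlgebra
  have t1 : IsScalarTower E M₀ M := IsScalarTower.of_algebraMap_eq fun x => Subtype.ext (hf x).symm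
  have t2 : IsScalarTower E N M := IsScalarTower.of_algebraMap_eq fun _ => rfl
  have t3 : IsScalarTower K E N := IsScalarTower.of_algebraMap_eq fun _ => rfl
  have hfin : FiniteDimensional E N := Module.Finite.of_restrictScalars_finite K E N
  -- the valuation rings
  let B₀ : ValuationSubring M₀ := O.comap (algebraMap M₀ Ω)
  let A₀ : ValuationSubring E := B₀.comap f
  have hA₀ : A₀ = O.comap (algebraMap E Ω) := by
    ext x
    show ((f x : M₀) : Ω) ∈ O ↔ (x : Ω) ∈ O
    rw [hf]
  have hDE : IsDiscreteValuationRing (O.comap (algebraMap E Ω)) :=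
    (isDVR_comap (algebraMap E Ω) ⟨π, hπE⟩ (by
      rw [range_algebraMap]; exact hπ.mono fun x hx => hEM₀ hx)).1
  have dA : IsDiscreteValuationRing A₀ := by rw [hA₀]; exact hDE
  have dB : IsDiscreteValuationRing B₀ :=
    (isDVR_comap (algebraMap M₀ Ω) ⟨π, hEM₀ hπE⟩ (by rw [range_algebraMap]; exact hπ)).1
  let j1 : Algebra A₀ B₀ := (inclOfComap B₀ f).toAlgebra
  have l1 : IsLocalHom (algebraMap A₀ B₀) := inferInstanceAs (IsLocalHom (inclOfComap B₀ f))
  let j2 : Algebra A₀ M₀ := (f.comp (algebraMap A₀ E)).toAlgebra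
  have s1 : IsScalarTower A₀ E M₀ := IsScalarTower.of_algebraMap_eq fun _ => rfl
  have s2 : IsScalarTower A₀ B₀ M₀ := IsScalarTower.of_algebraMap_eq fun _ => rfl
  have hinj : Function.Injective (algebraMap A₀ B₀) := by
    intro a b hab
    have h1 := congrArg (fun x : B₀ => (x : M₀)) hab
    exact Subtype.ext (f.injective h1)
  have hw : IsWeaklyUnramified A₀ B₀ := by
    refine (RamWeak.isWeaklyUnramified_incl_iff B₀ f).2 fun x hx => ?_
    rw [valuation_comap_lt_one_iff] at hx
    have hfπ : ((f ⟨π, hπE⟩ : M₀) : Ω) = π := hf _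
    refine ⟨⟨π, hπE⟩, ?_, ?_⟩
    · rw [valuation_comap_lt_one_iff]
      show O.valuation ((f ⟨π, hπE⟩ : M₀) : Ω) < 1
      rw [hfπ]; exact hπ.2.1
    · rw [valuation_comap_le_iff]
      show O.valuation (x : Ω) ≤ O.valuation ((f ⟨π, hπE⟩ : M₀) : Ω)
      rw [hfπ]
      exact hπ.le_of_lt_one x.2 hx
  have hg' : Algebra.IsGeometricallyReduced (ResidueField A₀) (ResidueField B₀) := by
    have e : (ResidueField.map (inclOfComap (O.comap (algebraMap M₀ Ω)) f)).toAlgebra =
        (ResidueField.instAlgebra : Algebra (ResidueField A₀) (ResidueField B₀)) := by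
      refine Algebra.algebra_ext _ _ fun x => ?_
      obtain ⟨x, rfl⟩ := residue_surjective x
      rfl
    have h := hg
    rw [e] at h
    exact h
  have hsol : IsSolution B₀ E M₀ N := Groth.Agent.S1983.result A₀ B₀ E M₀ hinj hw N
  -- apply to the compositum
  have hadj : Algebra.adjoin M₀ (Set.range (algebraMap N M)) = ⊤ := by
    have halg : ∀ x ∈ Set.range (algebraMap N M), IsAlgebraic M₀ x := by
      rintro _ ⟨x, rfl⟩
      have h1 : IsAlgebraic E (algebraMap N M x) :=
        (Algebra.IsAlgebraic.isAlgebraic x).algHom (IsScalarTower.toAlgHom E N M)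
      exact h1.extendScalars (algebraMap E M₀).injective
    rw [← adjoin_toSubalgebra_of_isAlgebraic halg]
    let A₁ : IntermediateField M₀ M := adjoin M₀ (Set.range (algebraMap N M))
    have hP : ∀ x : M, x ∈ A₁ := by
      let A₂ : IntermediateField K Ω :=
        { carrier := {x | ∃ h : x ∈ M, (⟨x, h⟩ : M) ∈ A₁}
          mul_mem' := fun {a b} ⟨ha, ha'⟩ ⟨hb, hb'⟩ => ⟨mul_mem ha hb, A₁.mul_mem ha' hb'⟩
          add_mem' := fun {a b} ⟨ha, ha'⟩ ⟨hb, hb'⟩ => ⟨add_mem ha hb, A₁.add_mem ha' hb'⟩
          algebraMap_mem' := fun c => ⟨M.algebraMap_mem c,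
            A₁.algebraMap_mem (algebraMap K M₀ c)⟩
          inv_mem' := fun a ⟨ha, ha'⟩ => ⟨inv_mem ha, A₁.inv_mem ha'⟩ }
      have hPA : M ≤ A₂ := by
        refine sup_le (fun x hx => ?_) (fun x hx => ?_)
        · have hxM : x ∈ M₀ := by rw [hM₀]; exact (le_sup_left : X ≤ _) hx
          exact ⟨hM₀M hxM, A₁.algebraMap_mem (⟨x, hxM⟩ : M₀)⟩
        · exact ⟨hNM hx, subset_adjoin _ _ ⟨⟨x, hx⟩, rfl⟩⟩
      exact fun x => (hPA x.2).2
    rw [eq_top_iff]
    exact fun x _ => hP x
  let W : ValuationSubring M := O.comap (algebraMap M Ω)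
  have hdom : Dominates B₀ ((algebraMap M₀ M).comp (algebraMap B₀ M₀)) W :=
    (dominates_comp_subtype_iff (algebraMap M₀ M) B₀ W).2 rfl
  have hfinal := hsol M hadj W hdom
  exact SolNormal.isSolution_of_normal O hO N M rfl g (fun _ => rfl) hfinal.1 hfinal.2

/-- the normal closure of a separable extension is separable -/
theorem isSeparable_normalClosure {K Ω : Type u} [Field K] [Field Ω] [Algebra K Ω]
    (E : IntermediateField K Ω) [Algebra.IsSeparable K E] : Algebra.IsSeparable K (normalClosure K E Ω) := by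
  unfold normalClosure
  have h : ∀ f : E →ₐ[K] Ω, Algebra.IsSeparable K f.fieldRange := fun f =>
    Algebra.IsSeparable.of_algHom K E (AlgEquiv.ofInjectiveField f).symm.toAlgHom
  rw [← le_separableClosure_iff]
  exact iSup_le fun f => (le_separableClosure_iff K Ω f.fieldRange).2 (h f)

/-- A good level which is separable over `K` gives a separable solution. -/
theorem exists_separable_solution_of_good {B K L Ω : Type u} [CommRing B] [IsDomain B] [IsDiscreteValuationRing B]
    [Field K] [Field L] [Field Ω] [Algebra K L] [Algebra B L] [IsFractionRing B L]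
    [Algebra L Ω] [Algebra K Ω] [IsScalarTower K L Ω] [IsAlgClosed Ω]
    (O : ValuationSubring Ω) (hO : Dominates B ((algebraMap L Ω).comp (algebraMap B L)) O)
    (E : IntermediateField K Ω) [FiniteDimensional K E] [Algebra.IsSeparable K E]
    (M₀ : IntermediateField K Ω) (hM₀ : M₀ = (IsScalarTower.toAlgHom K L Ω).fieldRange ⊔ E)
    (f : E →+* M₀) (hf : ∀ x : E, ((f x : M₀) : Ω) = x) {π : Ω} (hπE : π ∈ E) (hπ : IsUnif O (M₀ : Set Ω) π)
    (hg : @Algebra.IsGeometricallyReduced (ResidueField ((O.comap (algebraMap M₀ Ω)).comap f))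
          (ResidueField (O.comap (algebraMap M₀ Ω))) _ _
          (ResidueField.map (inclOfComap (O.comap (algebraMap M₀ Ω)) f)).toAlgebra) :
    ∃ (K₁ : Type u) (_ : Field K₁) (_ : Algebra K K₁) (_ : FiniteDimensional K K₁) (_ : Algebra.IsSeparable K K₁),
      IsSolution B K L K₁ :=
  ⟨normalClosure K E Ω, inferInstance, inferInstance, inferInstance, isSeparable_normalClosure E,
    isSolution_normalClosure_of_good O hO E M₀ hM₀ f hf hπE hπ hg⟩

end Groth.Agent.Etalg.H122.SepFinal
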