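import Groth.Agent.Etalg.H122.Approx
import Groth.Agent.Etalg.H122.ResClose
import Groth.Agent.Etalg.H122.SepFinal

/-!
# From a good finite level to a separable solution, given the approximation data

`E/K` finite good, `Es ≤ E`, `e` a family spanning `E` over `Es` with bounded coordinates over `F = L Es`, and
`E'` a finite separable extension of `K` containing `Es`, spanned over `Es` by a family `e'` close to `e`.
Then `E'` is good, hence there is a separable solution.
-/

set_option autoImplicit false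
universe u

open Groth.Agent.Etalg.ResInd IsLocalRing IntermediateField EtRam Groth.Agent.Etalg.RamBasic
  Groth.Agent.Etalg.H122.Approx

namespace Groth.Agent.Etalg.H122.GoodGlue

variable {B K L Ω : Type u} [CommRing B] [IsDomain B] [IsDiscreteValuationRing B]
    [Field K] [Field L] [Field Ω] [Algebra K L] [Algebra B L] [IsFractionRing B L]
    [Algebra L Ω] [Algebra K Ω] [IsScalarTower K L Ω] [IsAlgClosed Ω]

theorem exists_separable_solution
    (O : ValuationSubring Ω) (hO : Dominates B ((algebraMap L Ω).comp (algebraMap B L)) O)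
    (E : IntermediateField K Ω) [FiniteDimensional K E]
    {π : Ω} (hπE : π ∈ E)
    (hπ : IsUnif O (((IsScalarTower.toAlgHom K L Ω).fieldRange ⊔ E : IntermediateField K Ω) : Set Ω) π)
    (hg : ∀ (M : IntermediateField K Ω) (_ : M = (IsScalarTower.toAlgHom K L Ω).fieldRange ⊔ E) (f : E →+* M)
        (_ : ∀ x, ((f x : M) : Ω) = x),
        @Algebra.IsGeometricallyReduced (ResidueField ((O.comap (algebraMap M Ω)).comap f))
          (ResidueField (O.comap (algebraMap M Ω))) _ _
          (ResidueField.map (inclOfComap (O.comap (algebraMap M Ω)) f)).toAlgebra)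
    (Es : IntermediateField K Ω) (hEs : Es ≤ E)
    {ι : Type*} [Fintype ι] (e : ι → Ω) (he : ∀ j, e j ∈ E)
    (hspan : ∀ x ∈ E, ∃ c : ι → Ω, (∀ j, c j ∈ Es) ∧ x = ∑ j, c j * e j)
    (t : Ω) (ht0 : t ≠ 0) (ht1 : O.valuation t < 1) (N : ℕ)
    (hbound : ∀ c : ι → Ω, (∀ j, c j ∈ (IsScalarTower.toAlgHom K L Ω).fieldRange ⊔ Es) → ∀ j,
      O.valuation t ^ N * O.valuation (c j) ≤ O.valuation (∑ i, c i * e i))
    (E' : IntermediateField K Ω) [FiniteDimensional K E'] [Algebra.IsSeparable K E'] (hE' : Es ≤ E')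
    (e' : ι → Ω) (he' : ∀ j, e' j ∈ E')
    (hspan' : ∀ x ∈ E', ∃ c : ι → Ω, (∀ j, c j ∈ Es) ∧ x = ∑ j, c j * e' j)
    (happ : ∀ j, O.valuation (e' j - e j) ≤ O.valuation t ^ (N + 1)) :
    ∃ (K₁ : Type u) (_ : Field K₁) (_ : Algebra K K₁) (_ : FiniteDimensional K K₁) (_ : Algebra.IsSeparable K K₁),
      IsSolution B K L K₁ := by
  let X : IntermediateField K Ω := (IsScalarTower.toAlgHom K L Ω).fieldRange
  let F : IntermediateField K Ω := X ⊔ Es
  have hFE : F ⊔ E = X ⊔ E := by
    show X ⊔ Es ⊔ E = X ⊔ E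
    rw [sup_assoc, sup_eq_right.2 hEs]
  have hFE' : F ⊔ E' = X ⊔ E' := by
    show X ⊔ Es ⊔ E' = X ⊔ E'
    rw [sup_assoc, sup_eq_right.2 hE']
  have hvt : O.valuation t ≠ 0 := (Valuation.ne_zero_iff _).2 ht0
  have hF : Es ≤ F := le_sup_right
  have hC : ∀ c : ι → Ω, (∀ j, c j ∈ F) → ∀ j,
      O.valuation (c j) ≤ (O.valuation t ^ N)⁻¹ * O.valuation (∑ j, c j * e j) := by
    intro c hc j
    have h1 := hbound c hc j
    have hpos : 0 < O.valuation t ^ N := zero_lt_iff.2 (pow_ne_zero _ hvt)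
    calc O.valuation (c j) = (O.valuation t ^ N)⁻¹ * (O.valuation t ^ N * O.valuation (c j)) := by
          rw [← mul_assoc, inv_mul_cancel₀ hpos.ne', one_mul]
      _ ≤ _ := mul_le_mul_right h1 _
  have hCδ : (O.valuation t ^ N)⁻¹ * O.valuation t ^ (N + 1) < 1 := by
    rw [pow_succ, ← mul_assoc, inv_mul_cancel₀ (pow_ne_zero _ hvt), one_mul]
    exact ht1
  have hEE' : Close O (E : Set Ω) (E' : Set Ω) := close_base hF hE' he' hspan hC happ hCδ
  have halg : ∀ x ∈ E', IsAlgebraic F x := fun x hx => by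
    have h1 : IsAlgebraic K (⟨x, hx⟩ : E') := Algebra.IsAlgebraic.isAlgebraic _
    have h2 : IsAlgebraic K x := h1.algHom E'.val
    exact h2.extendScalars (algebraMap K F).injective
  have hMM' : Close O ((F ⊔ E' : IntermediateField K Ω) : Set Ω) ((F ⊔ E : IntermediateField K Ω) : Set Ω) :=
    close_sup hF he halg hspan' hC happ hCδ
  rw [hFE, hFE'] at hMM'
  obtain ⟨π', hπ'E', hπ', -⟩ := isUnif_of_close hπ hπE hEE' hMM'
  let M : IntermediateField K Ω := X ⊔ E
  let M' : IntermediateField K Ω := X ⊔ E'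
  let f : E →+* M := (IntermediateField.inclusion (le_sup_right : E ≤ M)).toRingHom
  let f' : E' →+* M' := (IntermediateField.inclusion (le_sup_right : E' ≤ M')).toRingHom
  have hr : Set.range ((algebraMap M Ω).comp f) = (E : Set Ω) := by
    ext x
    exact ⟨fun ⟨y, hy⟩ => hy ▸ y.2, fun hx => ⟨⟨x, hx⟩, rfl⟩⟩
  have hr' : Set.range ((algebraMap M' Ω).comp f') = (E' : Set Ω) := by
    ext x
    exact ⟨fun ⟨y, hy⟩ => hy ▸ y.2, fun hx => ⟨⟨x, hx⟩, rfl⟩⟩
  have hgeo := ResClose.geomReduced_of_close O (algebraMap M Ω) f (algebraMap M' Ω) f'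
    (by rw [hr, hr']; exact hEE')
    (by rw [SepFinal.range_algebraMap, SepFinal.range_algebraMap]; exact hMM')
    (by
      intro x
      obtain ⟨P, hP0, hP⟩ : IsAlgebraic K x := Algebra.IsAlgebraic.isAlgebraic x
      refine ⟨P.map (algebraMap K E), (Polynomial.map_ne_zero_iff (algebraMap K E).injective).2 hP0, ?_⟩
      rw [Polynomial.eval₂_map]
      have h1 : Polynomial.aeval (x : Ω) P = 0 := by
        have h2 := congrArg (algebraMap E' Ω) hP
        rw [map_zero, Polynomial.aeval_def, Polynomial.hom_eval₂] at h2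
        exact h2
      exact h1)
    (hg M rfl f fun _ => rfl)
  exact SepFinal.exists_separable_solution_of_good O hO E' M' rfl f' (fun _ => rfl) hπ'E' hπ' hgeo

end Groth.Agent.Etalg.H122.GoodGlue
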